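import Cfsg.Agent.Am33.Tab
import Cfsg.Agent.M12R.Fus

/-!
# Am33/A: the group `3² : GL₂(3)`
-/

set_option autoImplicit false
set_option maxRecDepth 100000
set_option synthInstance.maxSize 100000

namespace Cfsg.Agent.Am33

open Cfsg.Agent.Comp Cfsg.Agent.Core Cfsg.Agent.M12R Subgroup

variable {G : Type*} [Group G]

theorem orb [Finite G] (H : Subgroup G) (z : G) :
    {u | ∃ g ∈ H, g * z * g⁻¹ = u}.ncard * Nat.card (H ⊓ centralizer {z} : Subgroup G) = Nat.card H := by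
  letI : MulAction H G := MulAction.compHom G ((MulAut.conj : G →* MulAut G).comp H.subtype)
  have h1 := (MulAction.stabilizer H z).index_mul_card
  rw [MulAction.index_stabilizer] at h1
  rw [← h1]
  congr 1
  · congr 1
    ext u
    exact ⟨fun ⟨g, a, b⟩ => ⟨⟨g, a⟩, b⟩, fun ⟨g, b⟩ => ⟨g, g.2, b⟩⟩
  · rw [← card_map_of_injective H.subtype_injective]
    congr 2
    ext g
    exact ⟨fun ⟨a, b⟩ => ⟨⟨g, a⟩, mul_inv_eq_iff_eq_mul.2 (mem_cent.1 b), rfl⟩, fun ⟨k, a, b⟩ =>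
      b ▸ ⟨k.2, mem_cent.2 (mul_inv_eq_iff_eq_mul.1 a)⟩⟩

/-- a parabolic -/
structure PB (A V : Subgroup G) : Prop where
  le : V ≤ A
  nm : ∀ g ∈ A, ∀ v ∈ V, g * v * g⁻¹ ∈ V
  cV : Nat.card V = 9
  cA : Nat.card A = 432
  p3 : ∀ v ∈ V, v ^ 3 = 1
  ab : ∀ u ∈ V, ∀ v ∈ V, u * v = v * u
  sc : ∀ g ∈ A, (∀ v ∈ V, v * g = g * v) → g ∈ V

variable [Finite G] {A V : Subgroup G}

theorem PB.o3 (h : PB A V) {z : G} (hz : z ∈ V) (z1 : z ≠ 1) : Nat.card (zpowers z) = 3 := by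
  haveI : Fact (Nat.Prime 3) := ⟨Nat.prime_three⟩
  rw [Nat.card_zpowers, orderOf_eq_prime (h.p3 z hz) z1]

theorem PB.le_of (h : PB A V) {z y : G} (hz : z ∈ V) (hy : y ∈ V) (z1 : z ≠ 1) (yz : y ∉ zpowers z) {K : Subgroup G}
    (a : z ∈ K) (b : y ∈ K) : V ≤ K := by
  have h1 := card_dvd_of_le (inf_le_left : V ⊓ K ≤ V)
  have h2 : zpowers z ≤ V ⊓ K := zpowers_le.2 ⟨hz, a⟩
  have h3 := card_dvd_of_le h2
  rw [h.o3 hz z1] at h3
  rw [h.cV, show 9 = 3 ^ 2 from rfl, Nat.dvd_prime_pow Nat.prime_three] at h1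
  obtain ⟨k, hk, e⟩ := h1
  interval_cases k
  · rw [e] at h3; omega
  · exact absurd ((eq_of_le_of_card_ge h2 (by rw [e, h.o3 hz z1]; rfl)).ge ⟨hy, b⟩) yz
  · exact inf_eq_left.1 (eq_of_le_of_card_ge inf_le_left (by rw [e, h.cV]; rfl))

theorem PB.cen (h : PB A V) {z y : G} (hz : z ∈ V) (hy : y ∈ V) (z1 : z ≠ 1) (yz : y ∉ zpowers z) {g : G} (hg : g ∈ A)
    (a : g * z * g⁻¹ = z) (b : g * y * g⁻¹ = y) : g ∈ V :=
  h.sc g hg fun _ hv => mem_cent.1 (h.le_of hz hy z1 yz (mem_cent.2 (mul_inv_eq_iff_eq_mul.1 a).symm)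
    (mem_cent.2 (mul_inv_eq_iff_eq_mul.1 b).symm) hv)

theorem PB.tr (h : PB A V) {z y z' y' : G} (hz : z ∈ V) (hy : y ∈ V) (z1 : z ≠ 1) (yz : y ∉ zpowers z)
    (hz' : z' ∈ V) (hy' : y' ∈ V) (z1' : z' ≠ 1) (yz' : y' ∉ zpowers z') :
    ∃ g ∈ A, g * z * g⁻¹ = z' ∧ g * y * g⁻¹ = y' := by
  have cv : (V : Set G).ncard = 9 := h.cV
  have key : ∀ z ∈ V, ∀ y ∈ V, z ≠ 1 → y ∉ zpowers z → {u | ∃ g ∈ A, g * z * g⁻¹ = u} = (V : Set G) \ {1} ∧
      {u | ∃ g ∈ A ⊓ centralizer {z}, g * y * g⁻¹ = u} = (V : Set G) \ zpowers z := fun z hz y hy z1 yz => by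
    have s1 : {u | ∃ g ∈ A, g * z * g⁻¹ = u} ⊆ (V : Set G) \ {1} := by
      rintro _ ⟨g, a, rfl⟩
      exact ⟨h.nm g a z hz, fun e => z1 (conj_eq_one_iff.1 e)⟩
    have s2 : {u | ∃ g ∈ A ⊓ centralizer {z}, g * y * g⁻¹ = u} ⊆ (V : Set G) \ zpowers z := by
      rintro _ ⟨g, a, rfl⟩
      refine ⟨h.nm g a.1 y hy, fun ⟨k, e⟩ => yz ⟨k, ?_⟩⟩
      have := mul_inv_eq_iff_eq_mul.2 (Commute.zpow_right (mem_cent.1 a.2) k).eq
      simp only at e ⊢
      rw [← this] at e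
      simpa only [mul_left_inj, mul_right_inj] using e
    have c1 : ((V : Set G) \ {1}).ncard = 8 := by rw [Set.ncard_diff_singleton_of_mem V.one_mem, cv]
    have c2 : ((V : Set G) \ zpowers z).ncard = 6 := by
      rw [Set.ncard_diff (zpowers_le.2 hz), cv, show (zpowers z : Set G).ncard = 3 from h.o3 hz z1]
    have l1 := Set.ncard_le_ncard s1
    have l2 := Set.ncard_le_ncard s2
    have o1 := orb A z
    have o2 := orb (A ⊓ centralizer {z}) y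
    rw [show A ⊓ centralizer {z} ⊓ centralizer {y} = V from le_antisymm (fun g a => h.cen hz hy z1 yz a.1.1
      (mul_inv_eq_iff_eq_mul.2 (mem_cent.1 a.1.2)) (mul_inv_eq_iff_eq_mul.2 (mem_cent.1 a.2))) fun g a =>
      ⟨⟨h.le a, mem_cent.2 (h.ab _ a _ hz)⟩, mem_cent.2 (h.ab _ a _ hy)⟩, h.cV] at o2
    rw [h.cA, ← o2] at o1
    rw [c1] at l1
    rw [c2] at l2
    exact ⟨Set.eq_of_subset_of_ncard_le s1 (by rw [c1]; nlinarith), Set.eq_of_subset_of_ncard_le s2 (by rw [c2]; nlinarith)⟩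
  obtain ⟨g, a, rfl⟩ := (key z hz y hy z1 yz).1.ge ⟨hz', z1'⟩
  obtain ⟨k, b, rfl⟩ := (key _ hz' (g * y * g⁻¹) (h.nm g a y hy) z1' fun ⟨k, e⟩ => yz ⟨k, by
    simpa only [conj_zpow, mul_left_inj, mul_right_inj] using e⟩).2.ge ⟨hy', yz'⟩
  refine ⟨k * g, mul_mem b.1 a, ?_, by group⟩
  calc _ = k * (g * z * g⁻¹) * k⁻¹ := by group
    _ = _ := mul_inv_eq_iff_eq_mul.2 (mem_cent.1 b.2)

omit [Finite G] in
theorem inv3 {v : G} (h3 : v ^ 3 = 1) (h : v = v⁻¹) : v = 1 := by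
  rw [pow_three, ← mul_assoc, mul_eq_one_iff_eq_inv.2 h, one_mul] at h3; exact h3

theorem PB.inverts (h : PB A V) {z y a : G} (hz : z ∈ V) (hy : y ∈ V) (z1 : z ≠ 1) (yz : y ∉ zpowers z)
    (az : a * z * a⁻¹ = z⁻¹) (ay : a * y * a⁻¹ = y⁻¹) : ∀ v ∈ V, a * v * a⁻¹ = v⁻¹ := fun v hv =>
  (h.le_of hz hy z1 yz (K := { carrier := {v | v ∈ V ∧ a * v * a⁻¹ = v⁻¹}
                               mul_mem' := fun {u w} b c => ⟨mul_mem b.1 c.1, by
                                 rw [← conj_mul, b.2, c.2, ← mul_inv_rev, h.ab _ b.1 _ c.1]⟩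
                               one_mem' := ⟨one_mem _, by simp⟩
                               inv_mem' := fun {u} b => ⟨inv_mem b.1, by rw [← conj_inv, b.2]⟩ }) ⟨hz, az⟩ ⟨hy, ay⟩ hv).2

/-- the letters -/
def lt (z y x a b i : G) (n : ℕ) : G := [z, z⁻¹, y, y⁻¹, x, x⁻¹, a, b, i, i⁻¹].getD n 1

theorem l_eq : El.l DA 0 = mz ∧ El.l DA 1 = mz⁻¹ ∧ El.l DA 2 = my ∧ El.l DA 3 = my⁻¹ ∧ El.l DA 4 = mx ∧
    El.l DA 5 = mx⁻¹ ∧ El.l DA 6 = ma ∧ El.l DA 7 = mb ∧ El.l DA 8 = mi ∧ El.l DA 9 = mi⁻¹ := by decide +kernel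

theorem f_n : ∀ m : El DA, m ≠ 1 → ∃ k ∈ [mz, my, ma], ∃ g, g * (m * k * m⁻¹ * k⁻¹) * g⁻¹ = mz := by decide +kernel

theorem PB.exA (h : PB A V) {z y x a b : G} (hz : z ∈ V) (hy : y ∈ V) (z1 : z ≠ 1) (yz : y ∉ zpowers z)
    (hx : x ∈ A) (ha : a ∈ A) (hb : b ∈ A) (x3 : x ^ 3 = 1) (aa : a * a = 1) (bb : b * b = 1) (ab : a * b = b * a)
    (xz : x * z * x⁻¹ = z) (xy : x * y * x⁻¹ = z⁻¹ * y) (az : a * z * a⁻¹ = z⁻¹) (ay : a * y * a⁻¹ = y⁻¹)
    (ax : a * x = x * a) (bz : b * z * b⁻¹ = z⁻¹) (bx : b * x * b⁻¹ = x⁻¹) (hby : b * y * b⁻¹ = y) :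
    ∃ φ : El DA →* G, Function.Injective φ ∧ φ.range = A ∧ φ mz = z ∧ φ my = y ∧ φ mx = x ∧ φ ma = a ∧ φ mb = b := by
  have aV := h.inverts hz hy z1 yz az ay
  have ai : a⁻¹ = a := inv_eq_of_mul_eq_one_right aa
  have bi : b⁻¹ = b := inv_eq_of_mul_eq_one_right bb
  have zy := h.ab z hz y hy
  have triv : ∀ g ∈ A, Commute g a → MulAut.conj g z = z → MulAut.conj g y = y → g = 1 := fun g c d e f => by
    have := h.cen hz hy z1 yz c e f
    refine inv3 (h.p3 g this) ?_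
    rw [← aV g this, ← d.eq, mul_inv_cancel_right]
  have mi : ∀ g v : G, MulAut.conj g v⁻¹ = (MulAut.conj g v)⁻¹ := fun g v => map_inv _ _
  obtain ⟨i, iA, ia, iy, iz⟩ : ∃ i ∈ A, Commute i a ∧ i * y * i⁻¹ = z ∧ i * z * i⁻¹ = y⁻¹ := by
    have y1 : y ≠ 1 := fun e => yz (e ▸ one_mem _)
    obtain ⟨i, iA, iz, iy⟩ := h.tr hz hy z1 yz (inv_mem hy) hz (inv_ne_one.2 y1) fun e => yz (by
      rw [zpowers_inv] at e
      exact (eq_of_le_of_card_ge (zpowers_le.2 e) (by rw [h.o3 hz z1, h.o3 hy y1])).ge (mem_zpowers y))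
    have iz' : i⁻¹ * z * i⁻¹⁻¹ = y := by rw [← iy]; group
    have iy' : i⁻¹ * y * i⁻¹⁻¹ = z⁻¹ := by rw [← inv_inv y, ← iz]; group
    rw [← MulAut.conj_apply] at iz' iy' iz iy az ay
    have k : a * i * a * i⁻¹ ∈ V := by
      refine h.cen hz hy z1 yz (mul_mem (mul_mem (mul_mem ha iA) ha) (inv_mem iA)) ?_ ?_ <;>
        simp only [← MulAut.conj_apply, map_mul, MulAut.mul_apply, mi, iz', iy', iz, iy, az, ay, inv_inv]
    have k3 := h.p3 _ k
    have k2 := mul_mem k k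
    refine ⟨_, mul_mem (h.le k2) iA, ?_, ?_, ?_⟩
    · have e1 := aV _ k2
      rw [← eq_inv_of_mul_eq_one_left (show a * i * a * i⁻¹ * (a * i * a * i⁻¹ * (a * i * a * i⁻¹)) = 1 by
        rw [← k3, pow_three]), mul_inv_eq_iff_eq_mul] at e1
      rw [Commute, SemiconjBy, ← mul_assoc a, e1]
      calc _ = a * i * a * i⁻¹ * a * i * (a * i⁻¹ * i * a) := by simp only [mul_assoc]
        _ = _ := by rw [inv_mul_cancel_right, aa, mul_one]
    · rw [← MulAut.conj_apply, map_mul, MulAut.mul_apply, iy]; exact mul_inv_eq_iff_eq_mul.2 (h.ab _ k2 _ hz)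
    · rw [← MulAut.conj_apply, map_mul, MulAut.mul_apply, iz]; exact mul_inv_eq_iff_eq_mul.2 (h.ab _ k2 _ (inv_mem hy))
  have iz' : i⁻¹ * z * i⁻¹⁻¹ = y := by rw [← iy]; group
  have iy' : i⁻¹ * y * i⁻¹⁻¹ = z⁻¹ := by rw [← inv_inv y, ← iz]; group
  have hs : Sat (lt z y x a b i) RDA := fun w hw => by
    simp only [RDA, List.mem_cons, List.not_mem_nil, or_false] at hw
    rcases hw with rfl | rfl | rfl | rfl | rfl | rfl | rfl | rfl | rfl | rfl | rfl | rfl | rfl | rfl | rfl | rfl | rfl | rfl |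
      rfl | rfl | rfl | rfl | rfl | rfl | rfl | rfl <;>
      simp only [ev_cons, ev_nil, lt, List.getD_cons_succ, List.getD_cons_zero, mul_one, mul_inv_cancel, inv_mul_cancel]
    · simpa only [pow_three] using h.p3 z hz
    · simpa only [pow_three] using h.p3 y hy
    · simpa only [pow_three] using x3
    · exact aa
    · exact bb
    · rw [← mul_assoc b, ← ab, mul_assoc, bb, mul_one, aa]
    · rw [← mul_assoc, zy]; group
    · rw [← mul_assoc, ← mul_inv_eq_iff_eq_mul.1 xz]; group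
    · rw [← mul_assoc, ← mul_assoc, xy]; group
    · rw [← mul_assoc, ← mul_assoc]; nth_rw 2 [← ai]; rw [ay, inv_mul_cancel]
    · rw [← mul_assoc, ax, mul_assoc, ← mul_assoc a, aa]; group
    · rw [← mul_assoc, ← mul_assoc]; nth_rw 2 [← bi]; rw [bx, inv_mul_cancel]
    · rw [← mul_assoc, ← mul_assoc]; nth_rw 2 [← bi]; rw [hby, mul_inv_cancel]
    · rw [← MulAut.conj_apply] at iz iy az ay
      refine triv _ (mul_mem iA (mul_mem iA ha)) (ia.mul_left (ia.mul_left (Commute.refl a))) ?_ ?_ <;>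
        simp only [map_mul, MulAut.mul_apply, mi, iz, iy, az, ay, inv_inv]
    · rw [← mul_assoc, ← mul_assoc, iy, mul_inv_cancel]
    · rw [← mul_assoc, ← mul_assoc, iz, inv_mul_cancel]
    · rw [← MulAut.conj_apply] at iz iy bz hby
      have ba : Commute b a := ab.symm
      refine triv _ (mul_mem hb (mul_mem iA (mul_mem hb iA))) (ba.mul_left (ia.mul_left (ba.mul_left ia))) ?_ ?_ <;>
        simp only [map_mul, MulAut.mul_apply, mi, iz, iy, bz, hby, inv_inv]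
    · rw [← MulAut.conj_apply] at iz' iy' xz xy
      have xa : Commute x a := ax.symm
      have I := inv_mem iA
      have J := ia.inv_left
      refine triv _ (mul_mem I (mul_mem hx (mul_mem I (mul_mem hx (mul_mem I hx)))))
        (J.mul_left (xa.mul_left (J.mul_left (xa.mul_left (J.mul_left xa))))) ?_ ?_ <;>
        simp only [map_mul, MulAut.mul_apply, mi, iz', iy', xz, xy, inv_inv, mul_inv_rev] <;> group
  obtain ⟨φ, p1, p2⟩ := El.exists_hom (D := DA) hs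
  obtain ⟨l0, -, l2, -, l4, -, l6, l7, -⟩ := l_eq
  have φz : φ mz = z := l0 ▸ p1 0 (by decide)
  have hφ : Function.Injective φ := (injective_iff_map_eq_one φ).2 fun m hm => by_contra fun e => by
    obtain ⟨k, -, g, hg⟩ := f_n m e
    exact z1 (by rw [← φz, ← hg]; simp [hm])
  refine ⟨φ, hφ, eq_of_le_of_card_ge (p2.le.trans (gen_le.2 fun n hn => ?_)) (by rw [El.card_range hφ, h.cA]; rfl), φz,
    l2 ▸ p1 2 (by decide), l4 ▸ p1 4 (by decide), l6 ▸ p1 6 (by decide), l7 ▸ p1 7 (by decide)⟩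
  have hn' : n < 10 := hn
  interval_cases n
  exacts [h.le hz, inv_mem (h.le hz), h.le hy, inv_mem (h.le hy), hx, inv_mem hx, ha, hb, iA, inv_mem iA]

end Cfsg.Agent.Am33
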